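import Mathlib
import Cfsg.Agent.Lib.Helper67.LSF.Defs

/-!
# LSF package [MEM] (S5286): paths give elements of the group
-/

set_option autoImplicit false

namespace Cfsg.Agent.Lib.Helper79.LSF

open Cfsg Cfsg.Agent.Lib.Helper67.LSF

universe u

theorem mk_cons_true {X : Type u} (x : X) (L : List (X × Bool)) :
    FreeGroup.mk ((x, true) :: L) = FreeGroup.of x * FreeGroup.mk L := by
  rw [FreeGroup.of, FreeGroup.mul_mk]; rfl

theorem mk_cons_false {X : Type u} (x : X) (L : List (X × Bool)) :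
    FreeGroup.mk ((x, false) :: L) = (FreeGroup.of x)⁻¹ * FreeGroup.mk L := by
  rw [FreeGroup.of, FreeGroup.inv_mk, FreeGroup.mul_mk]; rfl

variable {Ω : Type u} [Group Ω] {S : Subgroup Ω}

/-- `inl w * inr q = inr q * inl (autF q⁻¹ w)`. -/
theorem inl_mul_inr (F : FusionSystem S) (w : FreeGroup (X F)) (q : Equiv.Perm S) :
    (SemidirectProduct.inl w * SemidirectProduct.inr q : Ghat F) =
      SemidirectProduct.inr q * SemidirectProduct.inl (autF F q⁻¹ w) := by
  refine SemidirectProduct.ext ?_ ?_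
  · simp
  · simp

theorem tGen_step (F : FusionSystem S) (i : Idx F) (q : Equiv.Perm S) (m : FreeGroup (X F)) :
    (tGen i * (SemidirectProduct.inr q * SemidirectProduct.inl m) : Ghat F) =
      SemidirectProduct.inr (i.σ * q) * SemidirectProduct.inl
        (FreeGroup.of (⟨i, ((q⁻¹ : Equiv.Perm S) : Equiv.Perm S ⧸ Lam i)⟩ : X F) * m) := by
  have h1 : autF F q⁻¹ (FreeGroup.of (x0 i)) =
      FreeGroup.of (⟨i, ((q⁻¹ : Equiv.Perm S) : Equiv.Perm S ⧸ Lam i)⟩ : X F) := by
    rw [autF, autX_of, x0, xperm_mk, mul_one]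
  rw [tGen, mul_assoc, ← mul_assoc (SemidirectProduct.inl _) (SemidirectProduct.inr q),
    inl_mul_inr, h1, mul_assoc, ← mul_assoc, ← map_mul, ← map_mul]

theorem tGen_inv_step (F : FusionSystem S) (i : Idx F) (q : Equiv.Perm S) (m : FreeGroup (X F)) :
    ((tGen i)⁻¹ * (SemidirectProduct.inr q * SemidirectProduct.inl m) : Ghat F) =
      SemidirectProduct.inr (i.σ⁻¹ * q) * SemidirectProduct.inl
        ((FreeGroup.of (⟨i, ((q⁻¹ * i.σ : Equiv.Perm S) : Equiv.Perm S ⧸ Lam i)⟩ : X F))⁻¹ * m) := by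
  have h1 : autF F (i.σ⁻¹ * q)⁻¹ (FreeGroup.of (x0 i))⁻¹ =
      (FreeGroup.of (⟨i, ((q⁻¹ * i.σ : Equiv.Perm S) : Equiv.Perm S ⧸ Lam i)⟩ : X F))⁻¹ := by
    rw [map_inv, autF, autX_of, x0, xperm_mk, mul_one, mul_inv_rev, inv_inv]
  rw [tGen, mul_inv_rev, ← map_inv, ← map_inv, mul_assoc,
    ← mul_assoc (SemidirectProduct.inr i.σ⁻¹) (SemidirectProduct.inr q), ← map_mul,
    ← mul_assoc, inl_mul_inr, h1, mul_assoc, ← map_mul]

/-- [MEM] paths give elements of the group. -/
theorem pkgMem : PkgMem.{u} := by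
  intro Ω _ S F L q hp
  induction hp with
  | nil s =>
    have : (SemidirectProduct.inr (lam S s) * SemidirectProduct.inl (FreeGroup.mk []) : Ghat F)
        = aGen F s := by
      rw [show (FreeGroup.mk [] : FreeGroup (X F)) = 1 from rfl, map_one, mul_one]; rfl
    rw [this]
    exact Subgroup.subset_closure (Or.inl ⟨s, rfl⟩)
  | @a s L q hp ih =>
    have : (SemidirectProduct.inr (lam S s * q) * SemidirectProduct.inl (FreeGroup.mk L) : Ghat F)
        = aGen F s * (SemidirectProduct.inr q * SemidirectProduct.inl (FreeGroup.mk L)) := by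
      rw [map_mul, mul_assoc]; rfl
    rw [this]
    exact (GG F).mul_mem (Subgroup.subset_closure (Or.inl ⟨s, rfl⟩)) ih
  | t i hp ih =>
    rw [mk_cons_true, ← tGen_step]
    exact (GG F).mul_mem (Subgroup.subset_closure (Or.inr ⟨i, rfl⟩)) ih
  | t' i hp ih =>
    rw [mk_cons_false, ← tGen_inv_step]
    exact (GG F).mul_mem ((GG F).inv_mem (Subgroup.subset_closure (Or.inr ⟨i, rfl⟩))) ih

end Cfsg.Agent.Lib.Helper79.LSF
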